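import Cfsg.Agent.PermGroups.PrimeIndex
import Cfsg.Agent.ZassAbelian.PrimePlusOne
import Cfsg.Agent.Classical.Linear.Simple
import Mathlib.GroupTheory.SpecificGroups.Alternating.Simple
import Mathlib.GroupTheory.Transfer

/-!
Non-solvable transitive groups of degree seven.
-/

set_option autoImplicit false
set_option linter.style.haveILetI false
set_option linter.unusedSectionVars false

open MulAction
open scoped MatrixGroups

namespace CfsgLib.PermGroups

variable {α : Type*} [Fintype α] [DecidableEq α]

/-- A proper subgroup not containing the alternating group of degree seven has index at least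
seven. -/
theorem seven_le_index_of_not_alternating (hα : Fintype.card α = 7) (K : Subgroup (Equiv.Perm α))
    (hK : ¬ alternatingGroup α ≤ K) : 7 ≤ K.index := by
  by_contra hlt
  push Not at hlt
  haveI : Nontrivial α := Fintype.one_lt_card_iff_nontrivial.1 (by omega)
  haveI := alternatingGroup.isSimpleGroup (α := α) (by rw [Nat.card_eq_fintype_card, hα]; omega)
  let φ : alternatingGroup α →* Equiv.Perm (Equiv.Perm α ⧸ K) :=
    (MulAction.toPermHom (Equiv.Perm α) (Equiv.Perm α ⧸ K)).comp (alternatingGroup α).subtype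
  rcases (MonoidHom.normal_ker φ).eq_bot_or_eq_top with h | h
  · rw [MonoidHom.ker_eq_bot_iff] at h
    have h1 := Nat.card_le_card_of_injective φ h
    rw [nat_card_alternatingGroup, Nat.card_eq_fintype_card, hα, Nat.card_perm,
      ← Subgroup.index_eq_card] at h1
    have h2 := Nat.factorial_le (show K.index ≤ 6 by omega)
    simp only [Nat.factorial] at h1 h2
    omega
  · apply hK
    intro g hg
    have h1 : (⟨g, hg⟩ : alternatingGroup α) ∈ φ.ker := h ▸ Subgroup.mem_top _
    have h2 := DFunLike.congr_fun (MonoidHom.mem_ker.1 h1) (QuotientGroup.mk (1 : Equiv.Perm α))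
    have h3 : g • (QuotientGroup.mk (1 : Equiv.Perm α) : Equiv.Perm α ⧸ K) =
        QuotientGroup.mk (1 : Equiv.Perm α) := h2
    rw [MulAction.Quotient.smul_mk, QuotientGroup.eq] at h3
    simpa using K.inv_mem h3

/-- No permutation of seven points has order fifteen. -/
theorem orderOf_ne_fifteen (hα : Fintype.card α = 7) (σ : Equiv.Perm α) : orderOf σ ≠ 15 := by
  intro h
  have hl : σ.cycleType.lcm = 15 := (Equiv.Perm.lcm_cycleType σ).trans h
  have hs : σ.cycleType.sum ≤ 7 := hα ▸ σ.sum_cycleType_le
  have hmem : ∀ n ∈ σ.cycleType, n = 3 ∨ n = 5 := by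
    intro n hn
    have h1 := Equiv.Perm.dvd_of_mem_cycleType hn
    have h2 := Equiv.Perm.two_le_of_mem_cycleType hn
    have h3 : n ≤ 7 := (Multiset.le_sum_of_mem hn).trans hs
    rw [h] at h1
    interval_cases n <;> omega
  have h3 : 3 ∈ σ.cycleType := by
    by_contra h3
    have : σ.cycleType.lcm ∣ 5 := Multiset.lcm_dvd.2 fun n hn =>
      dvd_of_eq ((hmem n hn).resolve_left fun e => h3 (e ▸ hn))
    rw [hl] at this
    norm_num at this
  have h5 : 5 ∈ σ.cycleType := by
    by_contra h5
    have : σ.cycleType.lcm ∣ 3 := Multiset.lcm_dvd.2 fun n hn =>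
      dvd_of_eq ((hmem n hn).resolve_right fun e => h5 (e ▸ hn))
    rw [hl] at this
    norm_num at this
  obtain ⟨t, ht⟩ := Multiset.exists_cons_of_mem h3
  rw [ht, Multiset.mem_cons] at h5
  have h5' : 5 ∈ t := h5.resolve_left (by norm_num)
  have := Multiset.le_sum_of_mem h5'
  rw [ht, Multiset.sum_cons] at hs
  omega

/-- No permutation of seven points has order eight. -/
theorem orderOf_ne_eight (hα : Fintype.card α = 7) (σ : Equiv.Perm α) : orderOf σ ≠ 8 := by
  intro h
  have hl : σ.cycleType.lcm = 8 := (Equiv.Perm.lcm_cycleType σ).trans h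
  have hs : σ.cycleType.sum ≤ 7 := hα ▸ σ.sum_cycleType_le
  have : σ.cycleType.lcm ∣ 4 := Multiset.lcm_dvd.2 fun n hn => by
    have h1 := Equiv.Perm.dvd_of_mem_cycleType hn
    have h2 := Equiv.Perm.two_le_of_mem_cycleType hn
    have h3 : n ≤ 7 := (Multiset.le_sum_of_mem hn).trans hs
    rw [h] at h1
    interval_cases n <;> omega
  rw [hl] at this
  norm_num at this

variable (G : Subgroup (Equiv.Perm α))

/-- Sylow normalisers in the non-solvable transitive case. -/
theorem degree_seven_sylow [IsPretransitive G α] (hα : Fintype.card α = 7)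
    (hG : ¬ Group.IsSolvable G) (hA : ¬ alternatingGroup α ≤ G) (P : Sylow 7 G) :
    ∃ n e : ℕ, Nat.card (Sylow 7 G) = n ∧
      Nat.card (Subgroup.normalizer ((P : Subgroup G) : Set G)) = 7 * e ∧
      Nat.card G = n * (7 * e) ∧ n * (7 * e) ≤ 720 ∧
      ((e = 2 ∨ e = 3 ∨ e = 6) ∧ (n = 8 ∨ n = 15 ∨ n = 36)) := by
  haveI : Fact (Nat.Prime 7) := ⟨by norm_num⟩
  have hX : Nat.card α = 7 := by rw [Nat.card_eq_fintype_card, hα]
  obtain ⟨e, he, hN⟩ := exists_card_normalizer_sylow hX P
  have hn : Nat.card (Sylow 7 G) = (Subgroup.normalizer ((P : Subgroup G) : Set G)).index :=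
    P.card_eq_index_normalizer
  have hG1 : Nat.card G = Nat.card (Sylow 7 G) * (7 * e) := by
    rw [hn, ← hN, Subgroup.index_mul_card]
  have hle : Nat.card G ≤ 720 := by
    have h1 := G.card_mul_index
    rw [Nat.card_perm, Nat.card_eq_fintype_card (α := α), hα] at h1
    have h2 := seven_le_index_of_not_alternating hα G hA
    simp only [Nat.factorial] at h1
    have := Nat.mul_le_mul_left (Nat.card G) h2
    omega
  have hdvd : Nat.card G ∣ 5040 := by
    have h1 := Subgroup.card_subgroup_dvd_card G
    rwa [Nat.card_perm, Nat.card_eq_fintype_card (α := α), hα] at h1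
  have hmod := card_sylow_modEq_one 7 G
  have hne1 : Nat.card (Sylow 7 G) ≠ 1 := fun h1 => by
    haveI := (Nat.card_eq_one_iff_unique.1 h1).1
    exact hG (isSolvable_of_sylow_normal hX P P.normal_of_subsingleton)
  have he1 : e ≠ 1 := by
    intro h1
    rw [h1, mul_one] at hN
    have hNP : Subgroup.normalizer ((P : Subgroup G) : Set G) = (P : Subgroup G) :=
      (Subgroup.eq_of_le_of_card_ge Subgroup.le_normalizer
        (by rw [hN, card_sylow_prime_degree hX P])).symm
    have hNC : Subgroup.normalizer ((P : Subgroup G) : Set G) ≤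
        Subgroup.centralizer ((P : Subgroup G) : Set G) := by
      rw [hNP, centralizer_sylow_prime_degree hX P]
    have hK := MonoidHom.ker_transferSylow_isComplement' P hNC
    have hK7 := MonoidHom.not_dvd_card_ker_transferSylow P hNC
    by_cases hb : (MonoidHom.transferSylow P hNC).ker = ⊥
    · rw [hb, Subgroup.isComplement'_bot_left] at hK
      exact hG (isSolvable_of_sylow_normal hX P (hK ▸ inferInstance))
    · haveI := isPretransitive_normal_prime_degree (X := α) hX hb
      exact hK7 (prime_dvd_card hX)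
  refine ⟨_, e, rfl, hN, hG1, hG1 ▸ hle, ?_⟩
  set n := Nat.card (Sylow 7 G)
  rw [hG1] at hle hdvd
  have he6 : e ≤ 6 := Nat.le_of_dvd (by norm_num) he
  have hn0 : 0 < n := Nat.card_pos
  rw [Nat.ModEq] at hmod
  have he' : e = 2 ∨ e = 3 ∨ e = 6 := by
    interval_cases e <;> omega
  refine ⟨he', ?_⟩
  have hn51 : n ≤ 51 := by rcases he' with rfl | rfl | rfl <;> omega
  have hnd : n ∣ 5040 := (Dvd.intro _ rfl).trans hdvd
  interval_cases n <;> first | omega | (simp at hnd) | skip

/-- A transitive group of degree seven with even Sylow normaliser has an odd element. -/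
theorem exists_odd_of_even_normalizer [IsPretransitive G α] (hα : Fintype.card α = 7)
    (P : Sylow 7 G) (heven : Even (Nat.card (Subgroup.normalizer ((P : Subgroup G) : Set G)))) :
    ¬ G ≤ alternatingGroup α := by
  haveI : Fact (Nat.Prime 7) := ⟨by norm_num⟩
  haveI : Fact (Nat.Prime 2) := ⟨Nat.prime_two⟩
  have hX : Nat.card α = 7 := by rw [Nat.card_eq_fintype_card, hα]
  obtain ⟨⟨t, htN⟩, ht⟩ := exists_prime_orderOf_dvd_card'
    (G := Subgroup.normalizer ((P : Subgroup G) : Set G)) 2 heven.two_dvd
  rw [← Subgroup.orderOf_coe] at ht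
  change orderOf t = 2 at ht
  intro hle
  have htt : t * t = 1 := by rw [← sq, ← ht, pow_orderOf_eq_one]
  obtain ⟨a, ha⟩ := exists_fixed_of_involution (X := α) (by rw [hX]; decide) htt
  have hfix : Fintype.card (Function.fixedPoints (t : Equiv.Perm α)) = 1 := by
    refine Fintype.card_eq_one_iff.2 ⟨⟨a, ha⟩, fun ⟨b, hb⟩ => Subtype.ext ?_⟩
    by_contra hne
    have := eq_one_of_fix_two_of_normalizer hX P htN hne hb ha
    rw [this, orderOf_one] at ht
    omega
  have h2 : (t : Equiv.Perm α) ^ 2 = 1 := by
    rw [sq, ← Subgroup.coe_mul, htt, Subgroup.coe_one]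
  have h3 := Equiv.Perm.mem_alternatingGroup.1 (hle t.2)
  rw [Equiv.Perm.sign_of_pow_two_eq_one h2, hfix, hα] at h3
  exact absurd h3 (by decide)

/-- With eight Sylow subgroups the group is a setting on them. -/
theorem setting_of_eight [IsPretransitive G α] (hα : Fintype.card α = 7) {e : ℕ} (P : Sylow 7 G)
    (hn : Nat.card (Sylow 7 G) = 8) (hG : Nat.card G = 8 * (7 * e)) (he : e < 7) :
    ∃ D : ZassAbelian.Setting G (Sylow 7 G), Nat.card D.F = 7 ∧ Nat.card D.H = e := by
  haveI : Fact (Nat.Prime 7) := ⟨by norm_num⟩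
  have hX : Nat.card α = 7 := by rw [Nat.card_eq_fintype_card, hα]
  haveI : FaithfulSMul G (Sylow 7 G) := by
    refine ⟨fun {x y} hxy => ?_⟩
    let K := (MulAction.toPermHom G (Sylow 7 G)).ker
    have hK : y⁻¹ * x ∈ K := by
      rw [MonoidHom.mem_ker]
      refine Equiv.ext fun Q => ?_
      show ((y⁻¹ * x) • Q : Sylow 7 G) = Q
      rw [mul_smul, hxy Q, inv_smul_smul]
    by_cases hb : K = ⊥
    · rw [hb, Subgroup.mem_bot, inv_mul_eq_one] at hK
      exact hK.symm
    exfalso
    haveI : Subsingleton (Sylow 7 G) := by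
      have hle : ∀ Q : Sylow 7 G, (Q : Subgroup G) ≤
          Subgroup.normalizer ((P : Subgroup G) : Set G) := by
        intro Q g hg
        have hgK : g ∈ K := sylow_le_normal_prime_degree hX hb Q hg
        exact Sylow.smul_eq_iff_mem_normalizer.1 (DFunLike.congr_fun (MonoidHom.mem_ker.1 hgK) P)
      refine ⟨fun Q R => ?_⟩
      have : ∀ Q : Sylow 7 G, Q = P := fun Q => by
        apply Sylow.ext
        haveI : ((P : Subgroup G).subgroupOf (Subgroup.normalizer ((P : Subgroup G) : Set G))).Normal :=
          inferInstance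
        have e1 : P.subtype Subgroup.le_normalizer = Q.subtype (hle Q) := by
          haveI := Sylow.unique_of_normal (P.subtype Subgroup.le_normalizer) (by rw [Sylow.coe_subtype]; infer_instance)
          exact Subsingleton.elim _ _
        exact (congrArg Sylow.toSubgroup (Sylow.subtype_injective e1)).symm
      rw [this Q, this R]
    rw [Nat.card_of_subsingleton P] at hn
    omega
  exact ZassAbelian.exists_setting_prime_add_one (p := 7) (d := e) (by norm_num) (by rw [hn])
    (by rw [hG]; ring) he

theorem matrix_pow_four :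
    ((!![0, 1; 1, 1] : Matrix (Fin 2) (Fin 2) (ZMod 7)) ^ 4) 0 1 = 3 := by decide

theorem matrix_pow_eight :
    ((!![0, 1; 1, 1] : Matrix (Fin 2) (Fin 2) (ZMod 7)) ^ 8) = (6 : ZMod 7) • 1 := by decide

theorem three_ne_zero_seven : ¬ (0 : ZMod 7) = 3 := by decide

theorem cube_eq_one_five : ∀ z : ZMod 5, z * z * z = 1 → z = 1 := by decide

/-- A matrix of projective order eight over the field with seven elements. -/
theorem exists_orderOf_eight : ∃ g : PGL(2, ZMod 7), orderOf g = 8 := by
  haveI : Fact (Nat.Prime 7) := ⟨by norm_num⟩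
  let M : GL (Fin 2) (ZMod 7) := Matrix.GeneralLinearGroup.mkOfDetNeZero !![0, 1; 1, 1] (by
    simp [Matrix.det_fin_two])
  refine ⟨Matrix.ProjGenLinGroup.mk M, orderOf_eq_prime_pow (p := 2) (n := 2) ?_ ?_⟩
  · intro h
    rw [← map_pow, Matrix.ProjGenLinGroup.mk_eq_one,
      Matrix.GeneralLinearGroup.center_eq_range_scalar] at h
    obtain ⟨u, hu⟩ := h
    have h01 := congrArg (fun A : GL (Fin 2) (ZMod 7) => (A : Matrix (Fin 2) (Fin 2) (ZMod 7)) 0 1) hu
    simp only [Units.val_pow_eq_pow_val] at h01
    rw [show ((M : Matrix (Fin 2) (Fin 2) (ZMod 7)) ^ 2 ^ 2) 0 1 = 3 by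
      exact matrix_pow_four] at h01
    simp at h01
    exact three_ne_zero_seven h01
  · rw [← map_pow, Matrix.ProjGenLinGroup.mk_eq_one]
    rw [Subgroup.mem_center_iff]
    intro B
    refine Units.ext ?_
    rw [Units.val_mul, Units.val_mul, Units.val_pow_eq_pow_val]
    have : ((M : Matrix (Fin 2) (Fin 2) (ZMod 7)) ^ 2 ^ (2 + 1)) = (6 : ZMod 7) • 1 := by
      exact matrix_pow_eight
    rw [this]
    simp

/-- Non-solvable transitive subgroups of the alternating group of degree seven. -/
theorem degree_seven_even [IsPretransitive G α] (hα : Fintype.card α = 7)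
    (hG : ¬ Group.IsSolvable G) (hA : ¬ alternatingGroup α ≤ G) (hle : G ≤ alternatingGroup α) :
    Nat.card G = 168 ∧ IsSimpleGroup G := by
  haveI : Fact (Nat.Prime 7) := ⟨by norm_num⟩
  have hX : Nat.card α = 7 := by rw [Nat.card_eq_fintype_card, hα]
  let P : Sylow 7 G := default
  obtain ⟨n, e, hn, hN, hGc, h720, he, hn'⟩ := degree_seven_sylow G hα hG hA P
  have hodd : ¬ Even (7 * e) := fun h => exists_odd_of_even_normalizer G hα P (hN ▸ h) hle
  obtain rfl : e = 3 := by
    rcases he with rfl | rfl | rfl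
    · exact absurd (by decide) hodd
    · rfl
    · exact absurd (by decide) hodd
  rcases hn' with rfl | rfl | rfl
  · obtain ⟨D, hF, hH⟩ := setting_of_eight G hα P hn hGc (by norm_num)
    refine ⟨by rw [hGc], ?_⟩
    rcases ZassAbelian.classify D with h | ⟨h, hinv⟩ | ⟨M, hMn, ht, hfree⟩
    · omega
    · obtain ⟨K, iF, iT, hK, -, ⟨f⟩⟩ := ZassAbelian.psl_of_inverted D h hinv
      haveI := CfsgLib.Classical.Linear.isSimpleGroup_psl_fin (F := K) le_rfl
        (fun _ => by rw [Nat.card_eq_fintype_card, hK, hF]; norm_num)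
      haveI : Nontrivial G := f.toEquiv.nontrivial
      exact f.isSimpleGroup
    · exfalso
      haveI := hMn
      haveI := D.finite_Omega
      haveI := ZassAbelian.isPretransitive_of_exists ht
      have hMc : Nat.card M = 8 := by
        rw [card_eq_of_regular (ZassAbelian.stabilizer_of_free hfree D.i), hn]
      have hb : M ≠ ⊥ := fun h => by rw [h, Subgroup.card_bot] at hMc; omega
      haveI := isPretransitive_normal_prime_degree (X := α) hX hb
      have := prime_dvd_card (G := M) hX
      rw [hMc] at this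
      omega
  · exfalso
    haveI : Fact (Nat.Prime 5) := ⟨by norm_num⟩
    let Q : Sylow 5 G := default
    have hQ : Nat.card (Q : Subgroup G) = 5 := by
      rw [Q.card_eq_multiplicity, hGc, show (15 * (7 * 3)) = 5 * 63 from rfl,
        Nat.factorization_mul (by norm_num) (by norm_num), Finsupp.add_apply,
        Nat.Prime.factorization_self (by norm_num),
        Nat.factorization_eq_zero_of_not_dvd (by norm_num : ¬ 5 ∣ 63)]
      rfl
    have hd := Q.card_dvd_index
    have hqi : (Q : Subgroup G).index = 63 := by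
      have := (Q : Subgroup G).card_mul_index
      rw [hQ, hGc] at this
      omega
    rw [hqi] at hd
    have hm := card_sylow_modEq_one 5 G
    have h21 : Nat.card (Sylow 5 G) = 1 ∨ Nat.card (Sylow 5 G) = 21 := by
      have := Nat.le_of_dvd (by norm_num) hd
      rw [Nat.ModEq] at hm
      interval_cases h : Nat.card (Sylow 5 G) <;> omega
    rcases h21 with h | h
    · haveI := (Nat.card_eq_one_iff_unique.1 h).1
      haveI := Q.normal_of_subsingleton
      have hb : (Q : Subgroup G) ≠ ⊥ := fun h => by rw [h, Subgroup.card_bot] at hQ; omega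
      haveI := isPretransitive_normal_prime_degree (X := α) hX hb
      have := prime_dvd_card (G := (Q : Subgroup G)) hX
      rw [hQ] at this
      omega
    · set N := Subgroup.normalizer ((Q : Subgroup G) : Set G)
      have hNc : Nat.card N = 15 := by
        have h1 := N.card_mul_index
        rw [show N.index = Nat.card (Sylow 5 G) from Q.card_eq_index_normalizer.symm, h, hGc] at h1
        omega
      haveI : Fact (Nat.Prime 3) := ⟨by norm_num⟩
      obtain ⟨⟨y, hyN⟩, hy⟩ := exists_prime_orderOf_dvd_card' (G := N) 3 (by rw [hNc]; norm_num)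
      rw [← Subgroup.orderOf_coe] at hy
      change orderOf y = 3 at hy
      obtain ⟨⟨x, hxQ⟩, hx⟩ := exists_prime_orderOf_dvd_card' (G := (Q : Subgroup G)) 5 (by rw [hQ])
      rw [← Subgroup.orderOf_coe] at hx
      change orderOf x = 5 at hx
      have hzp : Subgroup.zpowers x = (Q : Subgroup G) :=
        Subgroup.eq_of_le_of_card_ge (Subgroup.zpowers_le.2 hxQ) (by rw [Nat.card_zpowers, hx, hQ])
      have hyx : y * x * y⁻¹ ∈ (Q : Subgroup G) := (Subgroup.mem_normalizer_iff.1 hyN x).1 hxQ
      rw [← hzp, Subgroup.mem_zpowers_iff] at hyx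
      obtain ⟨k, hk⟩ := hyx
      have hk3 : x ^ (k * k * k) = x := by
        have e1 : ∀ i : ℤ, y * x ^ i * y⁻¹ = x ^ (k * i) := fun i => by
          rw [← conj_zpow, ← hk, ← zpow_mul]
        calc x ^ (k * k * k) = y * (y * (y * x * y⁻¹) * y⁻¹) * y⁻¹ := by
              rw [← hk, e1, e1]; ring_nf
          _ = (y ^ 3) * x * (y ^ 3)⁻¹ := by rw [pow_succ, pow_succ, pow_one]; group
          _ = x := by rw [← hy, pow_orderOf_eq_one]; group
      have hk1 : (k : ZMod 5) = 1 := by
        have h1 : ((k * k * k : ℤ) : ZMod 5) = ((1 : ℤ) : ZMod 5) := by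
          rw [eq_comm, ZMod.intCast_eq_intCast_iff_dvd_sub, ← hx, orderOf_dvd_sub_iff_zpow_eq_zpow,
            hk3, zpow_one]
        push_cast at h1
        revert h1
        generalize (k : ZMod 5) = z
        exact cube_eq_one_five z
      have hc : Commute y x := by
        have h1 : x ^ k = x ^ (1 : ℤ) := by
          rw [← orderOf_dvd_sub_iff_zpow_eq_zpow, hx, ← ZMod.intCast_eq_intCast_iff_dvd_sub]
          push_cast
          exact hk1.symm
        rw [hk, zpow_one] at h1
        exact mul_inv_eq_iff_eq_mul.1 h1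
      have := hc.orderOf_mul_eq_mul_orderOf_of_coprime (by rw [hx, hy]; norm_num)
      rw [hx, hy, ← Subgroup.orderOf_coe] at this
      exact orderOf_ne_fifteen hα _ this
  · omega

/-- A non-solvable transitive group of degree seven not containing the alternating group. -/
theorem degree_seven [IsPretransitive G α] (hα : Fintype.card α = 7)
    (hG : ¬ Group.IsSolvable G) (hA : ¬ alternatingGroup α ≤ G) :
    Nat.card G = 168 ∧ IsSimpleGroup G := by
  by_cases hle : G ≤ alternatingGroup α
  · exact degree_seven_even G hα hG hA hle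
  exfalso
  haveI : Fact (Nat.Prime 7) := ⟨by norm_num⟩
  have hX : Nat.card α = 7 := by rw [Nat.card_eq_fintype_card, hα]
  let χ : G →* ℤˣ := Equiv.Perm.sign.comp G.subtype
  have hker : ∀ g : G, g ∈ χ.ker ↔ (g : Equiv.Perm α) ∈ alternatingGroup α := fun g => Iff.rfl
  have hb : χ.ker ≠ ⊥ := by
    intro h
    apply hG
    exact Group.isSolvable_of_isSolvable_injective (f := χ) ((MonoidHom.ker_eq_bot_iff χ).1 h)
  haveI := isPretransitive_normal_prime_degree (X := α) hX hb
  set K := G ⊓ alternatingGroup α with hK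
  let f : χ.ker ≃* K :=
    { toFun := fun g => ⟨(g : G), (g : G).2, (hker _).1 g.2⟩
      invFun := fun g => ⟨⟨g, g.2.1⟩, (hker _).2 g.2.2⟩
      left_inv := fun _ => rfl
      right_inv := fun _ => rfl
      map_mul' := fun _ _ => rfl }
  haveI : IsPretransitive K α := ⟨fun a b => by
    obtain ⟨g, hg⟩ := exists_smul_eq χ.ker a b
    exact ⟨f g, hg⟩⟩
  have hKs : ¬ Group.IsSolvable K := by
    intro h
    apply hG
    haveI : Group.IsSolvable χ.ker :=
      Group.isSolvable_of_isSolvable_injective (f := f.toMonoidHom) f.injective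
    exact Group.isSolvable_of_ker_le_range χ.ker.subtype χ (by rw [Subgroup.range_subtype])
  have hK168 := (degree_seven_even K hα hKs (fun h => hA (h.trans inf_le_left)) inf_le_right).1
  have hidx : χ.ker.index = 2 := by
    rw [Subgroup.index_ker]
    have : χ.range = ⊤ := by
      rw [eq_top_iff]
      intro u _
      rcases Int.units_eq_one_or u with rfl | rfl
      · exact one_mem _
      · obtain ⟨g, hg, hg'⟩ := SetLike.not_le_iff_exists.1 hle
        exact ⟨⟨g, hg⟩, (Int.units_eq_one_or _).resolve_left hg'⟩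
    rw [this, Subgroup.card_top, Nat.card_eq_fintype_card, Fintype.card_units_int]
  have h336 : Nat.card G = 336 := by
    rw [← χ.ker.card_mul_index, hidx, Nat.card_congr f.toEquiv, hK168]
  let P : Sylow 7 G := default
  obtain ⟨n, e, hn, -, hGc, -, he, hn'⟩ := degree_seven_sylow G hα hG hA P
  obtain ⟨rfl, rfl⟩ : n = 8 ∧ e = 6 := by
    rcases he with rfl | rfl | rfl <;> rcases hn' with rfl | rfl | rfl <;> omega
  obtain ⟨D, hF, hH⟩ := setting_of_eight G hα P hn hGc (by norm_num)
  obtain ⟨F, iF, iT, hFc, ⟨φ⟩⟩ := ZassAbelian.pgl_of_commutative D (by omega)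
    (D.H_comm_of_prime (by rw [hF]; norm_num))
  obtain ⟨φ2⟩ := CfsgLib.Dickson.pgl_congr
    (FiniteField.ringEquivOfCardEq (K := F) (K' := ZMod 7) (by rw [hFc, hF, ZMod.card]))
  obtain ⟨g, hg⟩ := exists_orderOf_eight
  refine orderOf_ne_eight hα (((φ.trans φ2).symm g : G) : Equiv.Perm α) ?_
  rw [Subgroup.orderOf_coe, MulEquiv.orderOf_eq, hg]

end CfsgLib.PermGroups
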