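import Cfsg.Agent.PermGroups.RegularNormal
import Cfsg.Agent.Chars.Apps.FrobeniusKernel
import Mathlib.GroupTheory.GroupAction.Primitive

/-!
Minimal normal subgroups of doubly transitive groups.
-/

set_option autoImplicit false
set_option linter.style.haveILetI false
set_option linter.unusedSectionVars false

open MulAction
open scoped Pointwise

namespace CfsgLib.PermGroups

universe u v

theorem relIndex_mul_card_of_le {G : Type*} [Group G] {H K : Subgroup G} (h : H ≤ K) :
    H.relIndex K * Nat.card H = Nat.card K := by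
  rw [← Nat.card_congr (Subgroup.subgroupOfEquivOfLe h).toEquiv]
  exact Subgroup.index_mul_card _

variable {G : Type u} [Group G] [Finite G] {X : Type v} [MulAction G X] [Finite X]
  [FaithfulSMul G X]

/-- A non-regular minimal normal subgroup of a doubly transitive group has only trivial blocks. -/
theorem isPreprimitive_of_minimal_normal (h2 : IsMultiplyPretransitive G X 2)
    (hX : 2 ≤ Nat.card X) (N : Subgroup G) [N.Normal]
    (hmin : ∀ M : Subgroup G, M.Normal → M ≤ N → M = ⊥ ∨ M = N) [IsPretransitive N X]
    (hnr : ∀ a : X, stabilizer N a ≠ ⊥) : IsPreprimitive N X := by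
  classical
  haveI := isPretransitive_of_is_two_pretransitive (h2 := h2)
  obtain ⟨a⟩ : Nonempty X := (Nat.card_pos_iff.1 (show 0 < Nat.card X by omega)).1
  refine IsPreprimitive.of_isTrivialBlock_base a fun {B} haB hB => ?_
  by_contra hnt
  obtain ⟨hB1, hB2⟩ : ¬ B.Subsingleton ∧ B ≠ Set.univ := by
    simpa only [IsTrivialBlock, not_or] using hnt
  obtain ⟨b, hb, hba⟩ : ∃ b ∈ B, b ≠ a := by
    by_contra h
    push Not at h
    exact hB1 fun x hx y hy => (h x hx).trans (h y hy).symm
  obtain ⟨c, hc⟩ : ∃ c, c ∉ B := by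
    by_contra h
    push Not at h
    exact hB2 (Set.eq_univ_of_forall h)
  -- the orders of the two-point stabilisers
  let S : X → Subgroup N := fun x => stabilizer N a ⊓ stabilizer N x
  let conjN : G → N ≃* N := fun g => MulAut.conjNormal g
  have hconj : ∀ (g : G) (n : N) (x : X), (conjN g n) • g • x = g • n • x := fun g n x => by
    show (g * (n : G) * g⁻¹) • g • x = g • (n : G) • x
    rw [mul_smul, inv_smul_smul, mul_smul]
  have hScard : ∀ x y, x ≠ a → y ≠ a → Nat.card (S x) = Nat.card (S y) := by
    intro x y hx hy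
    obtain ⟨g, hg, rfl⟩ := exists_stabilizer_smul_eq h2 hx hy
    have hga : g • a = a := hg
    refine Nat.card_congr ((conjN g).toEquiv.subtypeEquiv fun n => ?_)
    show n ∈ S x ↔ conjN g n ∈ S (g • x)
    simp only [S, Subgroup.mem_inf, mem_stabilizer_iff]
    constructor
    · rintro ⟨h1, h3⟩
      exact ⟨by conv_lhs => rw [← hga, hconj, h1]; rw [hga], by rw [hconj, h3]⟩
    · rintro ⟨h1, h3⟩
      exact ⟨smul_left_cancel g (by rw [← hconj, hga, h1]),
        smul_left_cancel g (by rw [← hconj, h3])⟩
  -- `s = 1`: the stabiliser of the block and an outside point fixes the block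
  have key : ∀ x, x ∉ B → ∀ n : N, n • x = x → n • B = B → n • a = a := by
    intro x hx
    have hxa : x ≠ a := fun e => hx (e ▸ haB)
    let K : Subgroup N := stabilizer N x ⊓ stabilizer N B
    suffices hK : K ≤ stabilizer N a by
      intro n h1 h3
      exact hK ⟨h1, h3⟩
    have hblock : ∀ n : N, n • a = a → n • B = B := fun n hn =>
      hB.smul_eq_of_mem haB (by rw [hn]; exact haB)
    have hSK : S x ≤ K := fun n hn => ⟨hn.2, hblock n hn.1⟩
    have hKeq : K ⊓ stabilizer N a = S x := by
      refine le_antisymm (fun n hn => ⟨hn.2, hn.1.1⟩) fun n hn => ⟨hSK hn, hn.1⟩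
    -- `[K : S x]` divides `m = [N_a : S x]`
    set s := (S x).relIndex K with hs
    set m := (S x).relIndex (stabilizer N a) with hm
    have hscard : s * Nat.card (S x) = Nat.card K := relIndex_mul_card_of_le hSK
    have hmcard : m * Nat.card (S x) = Nat.card (stabilizer N a) :=
      relIndex_mul_card_of_le inf_le_left
    have hxcard : Nat.card (stabilizer N x) = Nat.card (stabilizer N a) := by
      obtain ⟨n, rfl⟩ := exists_smul_eq N a x
      exact Nat.card_congr (stabilizerEquivStabilizer rfl).toEquiv.symm
    have hsm : s ∣ m := by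
      have h1 : Nat.card K ∣ Nat.card (stabilizer N x) := Subgroup.card_dvd_of_le inf_le_left
      rw [hxcard, ← hscard, ← hmcard] at h1
      exact Nat.dvd_of_mul_dvd_mul_right Nat.card_pos h1
    have hmdvd : m ∣ Nat.card B - 1 := by
      haveI := Fintype.ofFinite X
      let B' := {y : X // y ∈ B ∧ y ≠ a}
      letI : MulAction (stabilizer N a) B' :=
        { smul := fun n y => ⟨(n : N) • (y : X), by
            have h3 : (n : N) • (y : X) ∈ (n : N) • B := Set.smul_mem_smul_set y.2.1
            rwa [hblock _ n.2] at h3, fun e => y.2.2 (smul_left_cancel (n : N) (e.trans n.2.symm))⟩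
          one_smul := fun y => Subtype.ext (one_smul N (y : X))
          mul_smul := fun n n' y => Subtype.ext (mul_smul (n : N) n' (y : X)) }
      have horb : ∀ y : B', Nat.card (orbit (stabilizer N a) y) = m := by
        intro y
        rw [Nat.card_congr (orbitEquivQuotientStabilizer _ y), ← Subgroup.index_eq_card]
        have e : stabilizer (stabilizer N a) y = (S y.1).subgroupOf (stabilizer N a) := by
          ext n
          exact ⟨fun h => ⟨n.2, congrArg Subtype.val h⟩, fun h => Subtype.ext h.2⟩
        rw [e]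
        show (S y.1).relIndex _ = m
        refine Nat.eq_of_mul_eq_mul_right (Nat.card_pos (α := S x)) ?_
        rw [hmcard]
        nth_rewrite 1 [← hScard y.1 x y.2.2 hxa]
        exact relIndex_mul_card_of_le inf_le_left
      have hsum : m ∣ Nat.card B' := by
        haveI : Fintype (orbitRel.Quotient (stabilizer N a) B') := Fintype.ofFinite _
        rw [Nat.card_congr (selfEquivSigmaOrbits (stabilizer N a) B'), Nat.card_sigma]
        refine Finset.dvd_sum fun w _ => dvd_of_eq ?_
        exact (horb (Quotient.out w)).symm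
      refine hsum.trans (dvd_of_eq ?_)
      rw [Nat.card_coe_set_eq, ← Set.ncard_sdiff_singleton_of_mem haB, ← Nat.card_coe_set_eq]
      rfl
    -- `l · s = |B|` by counting the orbit of `x` under the stabiliser of `B`
    have hsB : s ∣ Nat.card B := by
      set U := stabilizer N B with hU
      have hUa : Nat.card U = Nat.card B * Nat.card (stabilizer N a) := by
        rw [Nat.card_coe_set_eq]
        let f : U → B := fun u => ⟨(u : N) • a, by
          have h3 : (u : N) • a ∈ (u : N) • B := Set.smul_mem_smul_set haB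
          rwa [show (u : N) • B = B from u.2] at h3⟩
        haveI := Fintype.ofFinite U
        letI : MulAction U B :=
          { smul := fun u y => ⟨(u : N) • (y : X), by
              have h3 : (u : N) • (y : X) ∈ (u : N) • B := Set.smul_mem_smul_set y.2
              rwa [show (u : N) • B = B from u.2] at h3⟩
            one_smul := fun y => Subtype.ext (one_smul N (y : X))
            mul_smul := fun n n' y => Subtype.ext (mul_smul (n : N) n' (y : X)) }
        haveI : IsPretransitive U B := by
          refine ⟨fun y z => ?_⟩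
          obtain ⟨n, hn⟩ := exists_smul_eq N (y : X) (z : X)
          exact ⟨⟨n, hB.smul_eq_of_mem y.2 (by rw [hn]; exact z.2)⟩, Subtype.ext hn⟩
        have h1 := card_mul_card_stabilizer (G := U) (⟨a, haB⟩ : B)
        rw [← Nat.card_coe_set_eq, ← h1]
        congr 1
        exact Nat.card_congr
          { toFun := fun u => ⟨u.1.1, congrArg Subtype.val u.2⟩
            invFun := fun n => ⟨⟨n.1, hblock _ n.2⟩, Subtype.ext n.2⟩
            left_inv := fun _ => rfl
            right_inv := fun _ => rfl }
      -- the orbit of `x` under `U` is a union of `N_a` orbits of size `m`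
      let O := orbit U x
      letI : MulAction (stabilizer N a) O :=
        { smul := fun n y => ⟨(n : N) • (y : X), by
            obtain ⟨u, hu⟩ := y.2
            exact ⟨⟨(n : N) * u, U.mul_mem (hblock _ n.2) u.2⟩, by
              show ((n : N) * u) • x = _
              rw [mul_smul]
              exact congrArg ((n : N) • ·) hu⟩⟩
          one_smul := fun y => Subtype.ext (one_smul N (y : X))
          mul_smul := fun n n' y => Subtype.ext (mul_smul (n : N) n' (y : X)) }
      have hOB : ∀ y : O, (y : X) ≠ a := fun y e => by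
        obtain ⟨u, hu⟩ := y.2
        have hu' : (u : N) • x = a := hu.trans e
        apply hx
        have h3 : (u : N) • x ∈ (u : N) • B := by
          rw [show (u : N) • B = B from u.2, hu']; exact haB
        exact Set.smul_mem_smul_set_iff.1 h3
      have hmO : m ∣ Nat.card O := by
        haveI : Fintype (orbitRel.Quotient (stabilizer N a) O) := Fintype.ofFinite _
        rw [Nat.card_congr (selfEquivSigmaOrbits (stabilizer N a) O), Nat.card_sigma]
        refine Finset.dvd_sum fun w _ => dvd_of_eq ?_
        set y : O := Quotient.out w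
        rw [Nat.card_congr (orbitEquivQuotientStabilizer _ y), ← Subgroup.index_eq_card]
        have e : stabilizer (stabilizer N a) y = (S y.1).subgroupOf (stabilizer N a) := by
          ext n
          exact ⟨fun h => ⟨n.2, congrArg Subtype.val h⟩, fun h => Subtype.ext h.2⟩
        rw [e]
        show m = (S y.1).relIndex _
        refine (Nat.eq_of_mul_eq_mul_right (Nat.card_pos (α := S x)) ?_).symm
        rw [hmcard]
        nth_rewrite 1 [← hScard y.1 x (hOB y) hxa]
        exact relIndex_mul_card_of_le inf_le_left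
      have hOK : Nat.card O * Nat.card K = Nat.card U := by
        rw [Nat.card_congr (orbitEquivQuotientStabilizer U x), ← Subgroup.index_eq_card]
        have e : stabilizer U x = K.subgroupOf U := by
          ext u
          exact ⟨fun h => ⟨h, u.2⟩, fun h => h.1⟩
        rw [e, ← Nat.card_congr (Subgroup.subgroupOfEquivOfLe
          (show K ≤ U from inf_le_right)).toEquiv, Subgroup.index_mul_card]
      obtain ⟨l, hl⟩ := hmO
      rw [hl, hUa, ← hscard, ← hmcard] at hOK
      have h4 : l * s = Nat.card B := by
        have hpos : 0 < m * Nat.card (S x) := by rw [hmcard]; exact Nat.card_pos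
        refine Nat.eq_of_mul_eq_mul_right hpos ?_
        rw [← hOK]; ring
      exact ⟨l, by rw [← h4, mul_comm]⟩
    have hBpos : 0 < Nat.card B := by
      haveI : Nonempty B := ⟨⟨a, haB⟩⟩
      exact Nat.card_pos
    have hs1 : s = 1 := by
      have h1 := Nat.dvd_sub hsB (hsm.trans hmdvd)
      rwa [Nat.sub_sub_self hBpos, Nat.dvd_one] at h1
    rw [hs1, one_mul] at hscard
    rw [← Subgroup.eq_of_le_of_card_ge hSK hscard.ge]
    exact inf_le_left
  -- a two-point stabiliser across blocks fixes everything
  have hfixB : ∀ x, x ∉ B → ∀ n ∈ S x, ∀ y ∈ B, n • y = y := by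
    intro x hx n hn y hy
    obtain ⟨k, hk⟩ := exists_smul_eq N a y
    have hkB : k • B = B := hB.smul_eq_of_mem haB (by rw [hk]; exact hy)
    have hkx : k⁻¹ • x ∉ B := fun e => hx (by
      have h3 := Set.smul_mem_smul_set (a := k) e
      rwa [smul_inv_smul, hkB] at h3)
    have hnB : n • B = B := hB.smul_eq_of_mem haB (by rw [show n • a = a from hn.1]; exact haB)
    have hkinvB : k⁻¹ • B = B := by rw [inv_smul_eq_iff, hkB]
    have h1 := key _ hkx (k⁻¹ * n * k)
      (by rw [mul_smul, mul_smul, smul_inv_smul, show n • x = x from hn.2])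
      (by rw [mul_smul, mul_smul, hkB, hnB, hkinvB])
    rw [mul_smul, mul_smul, inv_smul_eq_iff, hk] at h1
    exact h1
  have hfrob : ∀ y, y ≠ a → S y = ⊥ := by
    have hca : c ≠ a := fun e => hc (e ▸ haB)
    have hb' : ∀ x, x ∉ B → S x = S b := by
      intro x hx
      refine Subgroup.eq_of_le_of_card_ge (fun n hn => ⟨hn.1, hfixB x hx n hn b hb⟩)
        (hScard b x hba (fun e => hx (e ▸ haB))).le
    have hall : ∀ n ∈ S c, ∀ y : X, n • y = y := by
      intro n hn y
      by_cases hy : y ∈ B
      · exact hfixB c hc n hn y hy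
      · rw [hb' c hc, ← hb' y hy] at hn
        exact hn.2
    intro y hy
    refine Subgroup.card_eq_one.1 ?_
    rw [hScard y c hy hca, Subgroup.card_eq_one, Subgroup.eq_bot_iff_forall]
    intro n hn
    exact Subtype.ext (FaithfulSMul.eq_of_smul_eq_smul (α := X) fun y => by
      rw [show (n : G) • y = y from hall n hn y, Subgroup.coe_one, one_smul])
  -- the Frobenius kernel
  obtain ⟨K, -, hKset, hKcard, hKinf, -⟩ :=
    CfsgLib.Chars.Apps.exists_normal_complement_of_malnormal (stabilizer N a) (by
      intro g h hh h1 hg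
      by_contra hga
      apply h1
      rw [← Subgroup.mem_bot, ← hfrob (g⁻¹ • a) (fun e => hga (by
        show g • a = a
        rw [← eq_inv_smul_iff, e]))]
      refine ⟨hh, ?_⟩
      show h • g⁻¹ • a = g⁻¹ • a
      have hg' : (g * h * g⁻¹) • a = a := hg
      rwa [mul_smul, mul_smul, ← eq_inv_smul_iff] at hg')
  have hKmem : ∀ n : N, n ∈ K ↔ n = 1 ∨ ∀ y : X, n • y ≠ y := by
    intro n
    rw [← SetLike.mem_coe, hKset]
    show (n = 1 ∨ _) ↔ _
    refine or_congr Iff.rfl ⟨fun h y hy => ?_, fun h g hg => ?_⟩
    · obtain ⟨k, rfl⟩ := exists_smul_eq N a y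
      apply h k
      rw [Subgroup.mem_pointwise_smul_iff_inv_smul_mem]
      show (MulAut.conj k)⁻¹ n ∈ stabilizer N a
      rw [MulAut.inv_apply, MulAut.conj_symm_apply, mem_stabilizer_iff, mul_smul, mul_smul,
        hy, inv_smul_smul]
    · rw [Subgroup.mem_pointwise_smul_iff_inv_smul_mem] at hg
      have h1 : (MulAut.conj g)⁻¹ n ∈ stabilizer N a := hg
      rw [MulAut.inv_apply, MulAut.conj_symm_apply, mem_stabilizer_iff, mul_smul, mul_smul,
        inv_smul_eq_iff] at h1
      exact h _ h1
  have hKn : (K.map N.subtype).Normal := by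
    refine ⟨?_⟩
    rintro _ ⟨n, hn, rfl⟩ g
    refine ⟨conjN g n, (hKmem _).2 ?_, rfl⟩
    rcases (hKmem n).1 hn with rfl | h
    · exact Or.inl (map_one _)
    · refine Or.inr fun y => ?_
      rw [← smul_inv_smul g y, hconj]
      exact fun e => h _ (smul_left_cancel g e)
  rcases hmin _ hKn (Subgroup.map_subtype_le K) with h | h
  · rw [Subgroup.map_eq_bot_iff_of_injective _ N.subtype_injective] at h
    rw [h, Subgroup.card_bot, index_stabilizer_of_transitive] at hKcard
    omega
  · have hKtop : K = ⊤ := by
      refine Subgroup.map_injective N.subtype_injective ?_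
      rw [h, ← MonoidHom.range_eq_map, Subgroup.range_subtype]
    rw [hKtop, top_inf_eq] at hKinf
    exact hnr a hKinf

/-- A non-regular minimal normal subgroup of a doubly transitive group is simple. -/
theorem isSimpleGroup_of_minimal_normal (h2 : IsMultiplyPretransitive G X 2)
    (hX : 2 ≤ Nat.card X) (N : Subgroup G) [N.Normal] (hN : N ≠ ⊥)
    (hmin : ∀ M : Subgroup G, M.Normal → M ≤ N → M = ⊥ ∨ M = N) [IsPretransitive N X]
    [IsPreprimitive N X] (hnr : ∀ a : X, stabilizer N a ≠ ⊥) : IsSimpleGroup N := by
  classical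
  haveI := isPretransitive_of_is_two_pretransitive (h2 := h2)
  haveI : Nontrivial N := (Subgroup.nontrivial_iff_ne_bot N).2 hN
  refine ⟨fun H hH => ?_⟩
  by_contra hcon
  rw [not_or] at hcon
  -- a minimal normal subgroup of `N`
  obtain ⟨T, ⟨hTn, hTb⟩, hTmin⟩ :=
    WellFounded.has_min (wellFounded_lt (α := Subgroup N)) {T | T.Normal ∧ T ≠ ⊥} ⟨H, hH, hcon.1⟩
  have hTmin' : ∀ M : Subgroup N, M.Normal → M ≤ T → M = ⊥ ∨ M = T := fun M hM hle => by
    by_contra h
    rw [not_or] at h
    exact hTmin M ⟨hM, h.1⟩ (lt_of_le_of_ne hle h.2)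
  have hTtop : T ≠ ⊤ := fun e => hcon.2 (by
    by_contra hne
    exact hTmin H ⟨hH, hcon.1⟩ (e ▸ lt_top_iff_ne_top.2 hne))
  let conjN : G → N ≃* N := fun g => MulAut.conjNormal g
  have hconjmul : ∀ (g g' : G) (n : N), conjN g (conjN g' n) = conjN (g * g') n := fun g g' n => by
    simp [conjN, map_mul]
  obtain ⟨g₀, hg₀⟩ : ∃ g : G, T.map (conjN g).toMonoidHom ≠ T := by
    by_contra h
    push Not at h
    have hn : (T.map N.subtype).Normal := ⟨fun _ ⟨t, ht, e⟩ g => e ▸
      ⟨conjN g t, (h g).le (Subgroup.mem_map_of_mem _ ht), rfl⟩⟩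
    rcases hmin _ hn (Subgroup.map_subtype_le T) with e | e
    · exact hTb ((Subgroup.map_eq_bot_iff_of_injective _ N.subtype_injective).1 e)
    · refine hTtop (Subgroup.map_injective N.subtype_injective ?_)
      rw [e, ← MonoidHom.range_eq_map, Subgroup.range_subtype]
  let C : Subgroup N := Subgroup.centralizer (T : Set N)
  haveI := hTn
  have hTsub : ∀ g : G, T.map (conjN g).toMonoidHom ≠ T → T.map (conjN g).toMonoidHom ≤ C := by
    intro g hg
    have hn : (T.map (conjN g).toMonoidHom).Normal := hTn.map _ (conjN g).surjective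
    have hdis : Disjoint (T.map (conjN g).toMonoidHom) T := by
      rw [disjoint_iff]
      haveI := hn
      rcases hTmin' _ (Subgroup.normal_inf_normal (T.map (conjN g).toMonoidHom) T) inf_le_right
        with e | e
      · exact e
      · exact absurd (Subgroup.eq_of_le_of_card_ge (inf_eq_right.1 e)
          (Nat.card_congr (T.equivMapOfInjective _ (conjN g).injective).toEquiv).symm.le).symm hg
    intro x hx
    rw [Subgroup.mem_centralizer_iff]
    intro y hy
    exact (Subgroup.commute_of_normal_of_disjoint _ _ hn hTn hdis x y hx hy).eq.symm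
  haveI hTt : IsPretransitive T X := isPretransitive_normal (X := X) (G := N) hTb
  haveI hCt : IsPretransitive C X := by
    have hCb : C ≠ ⊥ := fun e => hTb ((Subgroup.map_eq_bot_iff_of_injective _
      (conjN g₀).injective).1 (le_bot_iff.1 (e ▸ hTsub g₀ hg₀)))
    exact isPretransitive_normal (X := X) (G := N) hCb
  obtain ⟨a⟩ : Nonempty X := (Nat.card_pos_iff.1 (show 0 < Nat.card X by omega)).1
  have hTfree : ∀ t ∈ T, t • a = a → t = 1 := fun t ht e =>
    eq_one_of_commute_transitive (N := C) (c := t) (fun n hn => (hn t ht).symm) e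
  have hCfree : ∀ c ∈ C, c • a = a → c = 1 := fun c hc e =>
    eq_one_of_commute_transitive (N := T) (c := c) (fun n hn => hc n hn) e
  -- equal orders for equal images
  have hordeq : ∀ t ∈ T, ∀ c ∈ C, c • a = t • a → orderOf c = orderOf t := by
    intro t ht c hc e
    have hcomm : Commute t⁻¹ c := (show Commute t c from hc t ht).inv_left
    have hs : (t⁻¹ * c) • a = a := by rw [mul_smul, e, inv_smul_smul]
    have hpow : ∀ k : ℕ, (t⁻¹ ^ k * c ^ k) • a = a := fun k => by
      rw [← hcomm.mul_pow]
      induction k with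
      | zero => rw [pow_zero, one_smul]
      | succ k ih => rw [pow_succ, mul_smul, hs, ih]
    refine Nat.dvd_antisymm (orderOf_dvd_of_pow_eq_one ?_) (orderOf_dvd_of_pow_eq_one ?_)
    · refine hCfree _ (C.pow_mem hc _) ?_
      have := hpow (orderOf t)
      rwa [inv_pow, pow_orderOf_eq_one, inv_one, one_mul] at this
    · refine inv_injective ?_
      rw [← inv_pow, inv_one]
      refine hTfree _ (T.pow_mem (T.inv_mem ht) _) ?_
      have := hpow (orderOf c)
      rwa [pow_orderOf_eq_one, mul_one] at this
  -- all non-identity elements of `T` have the same order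
  obtain ⟨t₀, ht₀, ht₀1⟩ : ∃ t ∈ T, t ≠ 1 := by
    by_contra h
    push Not at h
    exact hTb ((Subgroup.eq_bot_iff_forall T).2 h)
  have hsame : ∀ t ∈ T, t ≠ 1 → orderOf t = orderOf t₀ := by
    intro t ht ht1
    obtain ⟨g, hga, hgt⟩ := exists_stabilizer_smul_eq h2 (a := a) (b := t₀ • a) (c := t • a)
      (fun e => ht₀1 (hTfree t₀ ht₀ e)) (fun e => ht1 (hTfree t ht e))
    have hga' : g⁻¹ • a = a := by rw [inv_smul_eq_iff]; exact (show g • a = a from hga).symm
    have hval : conjN g t₀ • a = t • a := by
      show (g * (t₀ : G) * g⁻¹) • a = t • a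
      rw [mul_smul, hga', mul_smul]
      exact hgt
    rw [← MulEquiv.orderOf_eq (conjN g) t₀]
    by_cases hTg : T.map (conjN g).toMonoidHom = T
    · have hmem : conjN g t₀ ∈ T := hTg.le (Subgroup.mem_map_of_mem _ ht₀)
      have h1 := hTfree _ (T.mul_mem (T.inv_mem ht) hmem) (by rw [mul_smul, hval, inv_smul_smul])
      rw [inv_mul_eq_one.1 h1]
    · exact (hordeq t ht _ (hTsub g hTg (Subgroup.mem_map_of_mem _ ht₀)) hval).symm
  -- so `T` is a `p`-group, hence has centre, which lies in `C`
  obtain ⟨p, hp, hpd⟩ := Nat.exists_prime_and_dvd (mt orderOf_eq_one_iff.1 ht₀1)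
  haveI := Fact.mk hp
  have hord : orderOf t₀ = p := by
    have h1 : orderOf (t₀ ^ (orderOf t₀ / p)) = p := orderOf_pow_orderOf_div (orderOf_pos t₀).ne' hpd
    rw [← hsame _ (T.pow_mem ht₀ _) (fun e => by
      rw [e, orderOf_one] at h1; exact hp.ne_one h1.symm), h1]
  have hpT : IsPGroup p T := fun t => by
    by_cases ht1 : (t : N) = 1
    · exact ⟨0, by rw [pow_zero, pow_one]; exact Subtype.ext ht1⟩
    · exact ⟨1, by
        rw [pow_one]; apply Subtype.ext
        rw [Subgroup.coe_pow, ← hord, ← hsame _ t.2 ht1, pow_orderOf_eq_one, Subgroup.coe_one]⟩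
  haveI : Nontrivial T := (Subgroup.nontrivial_iff_ne_bot T).2 hTb
  obtain ⟨z, hz, hz1⟩ :=
    (Subgroup.center T).nontrivial_iff_exists_ne_one.1 hpT.center_nontrivial
  -- the centre of `T` lies in `C`, so is normal in `N`, so is `T`
  haveI : Subgroup.Characteristic (Subgroup.center T) := inferInstance
  have hcn : ((Subgroup.center T).map T.subtype).Normal := inferInstance
  rcases hTmin' _ hcn (Subgroup.map_subtype_le _) with e | e
  · rw [Subgroup.map_eq_bot_iff_of_injective _ T.subtype_injective] at e
    exact hz1 (by rw [← Subgroup.mem_bot, ← e]; exact hz)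
  · -- `T` abelian is regular and self-centralising
    have hTC : T ≤ C := by
      intro x hx
      rw [← e] at hx
      obtain ⟨w, hw, rfl⟩ := hx
      rw [Subgroup.mem_centralizer_iff]
      intro y hy
      exact congrArg Subtype.val ((Subgroup.mem_center_iff.1 hw) ⟨y, hy⟩)
    have hCT : C ≤ T := by
      intro c hc
      obtain ⟨⟨t, ht⟩, hte⟩ := exists_smul_eq T a (c • a)
      have hte' : t • a = c • a := hte
      have h1 := hCfree (c⁻¹ * t) (C.mul_mem (C.inv_mem hc) (hTC ht))
        (by rw [mul_smul, hte', inv_smul_smul])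
      rw [inv_mul_eq_one] at h1
      exact h1 ▸ ht
    have := hTsub g₀ hg₀
    exact hg₀ (Subgroup.eq_of_le_of_card_ge (this.trans hCT)
      (Nat.card_congr (T.equivMapOfInjective _ (conjN g₀).injective).toEquiv).le)

end CfsgLib.PermGroups
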