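import Cfsg.Agent.PermGroups.Burnside
import Mathlib.GroupTheory.GroupAction.Quotient
import Mathlib.Data.ZMod.Basic

/-!
Subgroups of index `p` in transitive groups of degree `p` whose Sylow normaliser has even order.
-/

set_option autoImplicit false
set_option linter.style.haveILetI false
set_option linter.unusedSectionVars false

open MulAction

namespace CfsgLib.PermGroups

/-- A set `D = -D` in `ZMod p` with all `#(D ∩ (i - D))`, `i ≠ 0`, equal is trivial. -/
theorem symmetric_difference_set_trivial {p : ℕ} [Fact p.Prime] (hp2 : p ≠ 2) (D : Finset (ZMod p))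
    {m : ℕ} (hm : ∀ i : ZMod p, i ≠ 0 → (Finset.univ.filter fun j => i - j ∈ D ∧ j ∈ D).card = m) :
    (∀ x : ZMod p, x ≠ 0 → x ∈ D) ∨ (∀ x : ZMod p, x ≠ 0 → x ∉ D) := by
  classical
  have h2 : (2 : ZMod p) ≠ 0 := by
    intro h
    have : ((2 : ℕ) : ZMod p) = 0 := by exact_mod_cast h
    rw [ZMod.natCast_eq_zero_iff] at this
    exact hp2 ((Nat.prime_dvd_prime_iff_eq Fact.out Nat.prime_two).1 this)
  have key : ∀ x : ZMod p, x ≠ 0 → ((m : ZMod 2) = 1 ↔ x ∈ D) := by
    intro x hx
    have hi : x + x ≠ 0 := by rw [← two_mul]; exact mul_ne_zero h2 hx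
    rw [← hm (x + x) hi, Finset.card_eq_sum_ones, Nat.cast_sum]
    set s := Finset.univ.filter fun j => x + x - j ∈ D ∧ j ∈ D with hs
    rw [← Finset.sum_filter_add_sum_filter_not s (fun j => j = x)]
    have h0 : ∑ j ∈ s.filter (fun j => ¬ j = x), ((1 : ℕ) : ZMod 2) = 0 := by
      refine Finset.sum_involution (fun j _ => x + x - j) (fun _ _ => rfl) (fun j hj _ e => ?_)
        (fun j hj => ?_) (fun j _ => sub_sub_cancel _ _)
      · apply (Finset.mem_filter.1 hj).2
        have : (2 : ZMod p) * (x - j) = 0 := by linear_combination e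
        exact (sub_eq_zero.1 ((mul_eq_zero.1 this).resolve_left h2)).symm
      · obtain ⟨hj, hne⟩ := Finset.mem_filter.1 hj
        obtain ⟨-, h1, h3⟩ := Finset.mem_filter.1 hj
        refine Finset.mem_filter.2 ⟨Finset.mem_filter.2 ⟨Finset.mem_univ _, ?_, h1⟩, fun e => hne ?_⟩
        · rw [sub_sub_cancel]; exact h3
        · linear_combination -e
    rw [h0, add_zero]
    by_cases hxD : x ∈ D
    · rw [show s.filter (fun j => j = x) = {x} by
        ext j
        simp only [hs, Finset.mem_filter, Finset.mem_univ, true_and, Finset.mem_singleton]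
        exact ⟨fun h => h.2, fun h => by subst h; simp [hxD]⟩]
      simp [hxD]
    · rw [show s.filter (fun j => j = x) = ∅ by
        ext j
        simp only [hs, Finset.mem_filter, Finset.mem_univ, true_and, Finset.notMem_empty,
          iff_false]
        rintro ⟨⟨-, h⟩, rfl⟩
        exact hxD h]
      simp [hxD]
  by_cases hm1 : (m : ZMod 2) = 1
  · exact Or.inl fun x hx => (key x hx).1 hm1
  · exact Or.inr fun x hx h => hm1 ((key x hx).2 h)

variable {p : ℕ} [Fact p.Prime] {G : Type*} [Group G] [Finite G]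

/-- An involution of an odd set has a fixed point. -/
theorem exists_fixed_of_involution {X : Type*} [MulAction G X] [Finite X]
    (hodd : Odd (Nat.card X)) {t : G} (ht : t * t = 1) : ∃ x : X, t • x = x := by
  classical
  haveI := Fintype.ofFinite X
  by_contra h
  push Not at h
  have : ((Finset.univ : Finset X).card : ZMod 2) = 0 := by
    rw [Finset.card_eq_sum_ones, Nat.cast_sum]
    exact Finset.sum_involution (fun x _ => t • x) (fun _ _ => by simp; decide)
      (fun x _ _ => h x) (fun _ _ => Finset.mem_univ _)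
      (fun x _ => by rw [smul_smul, ht, one_smul])
  rw [Finset.card_univ, ← Nat.card_eq_fintype_card,
    ZMod.natCast_eq_one_iff_odd.2 hodd] at this
  exact one_ne_zero this

variable {X : Type*} [MulAction G X] [FaithfulSMul G X] [IsPretransitive G X]

/-- With even Sylow normaliser, a subgroup of index `p` is a point stabiliser. -/
theorem exists_eq_stabilizer_of_index_prime [Fintype X] (hX : Fintype.card X = p) (P : Sylow p G)
    (heven : Even (Nat.card (Subgroup.normalizer ((P : Subgroup G) : Set G)))) (H : Subgroup G)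
    (hH : H.index = p) : ∃ a : X, H = stabilizer G a := by
  classical
  have hp : p.Prime := Fact.out
  have hX' : Nat.card X = p := by rw [Nat.card_eq_fintype_card, hX]
  -- it suffices to fix a point
  suffices h : ∃ a : X, H ≤ stabilizer G a by
    obtain ⟨a, ha⟩ := h
    refine ⟨a, Subgroup.eq_of_le_of_card_ge ha (le_of_eq ?_)⟩
    have h1 := H.card_mul_index
    have h2 := (stabilizer G a).card_mul_index
    rw [hH] at h1
    rw [index_stabilizer_of_transitive, hX'] at h2
    exact Nat.eq_of_mul_eq_mul_right hp.pos (h2.trans h1.symm)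
  have hpH : ¬ p ∣ Nat.card H := fun h => by
    refine sq_not_dvd_card (G := G) hX' ?_
    rw [← H.card_mul_index, hH, sq]
    exact mul_dvd_mul_right h p
  by_cases hp2 : p = 2
  · obtain ⟨a⟩ : Nonempty X := (Nat.card_pos_iff.1 (hX' ▸ hp.pos)).1
    have h1 : Nat.card G ∣ p.factorial := hX' ▸ card_dvd_factorial (G := G) (X := X)
    rw [← H.card_mul_index, hH, hp2] at h1
    have h3 : Nat.card H = 1 := by
      have := Nat.le_of_dvd (by decide) h1
      have h4 : 0 < Nat.card H := Nat.card_pos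
      simp only [Nat.factorial] at this
      omega
    exact ⟨a, (Subgroup.card_eq_one.1 h3).le.trans bot_le⟩
  have hpodd : Odd p := hp.odd_of_ne_two hp2
  haveI : Fact (Nat.Prime 2) := ⟨Nat.prime_two⟩
  obtain ⟨⟨t, htN⟩, ht⟩ := exists_prime_orderOf_dvd_card'
    (G := Subgroup.normalizer ((P : Subgroup G) : Set G)) 2 heven.two_dvd
  rw [← Subgroup.orderOf_coe] at ht
  change orderOf t = 2 at ht
  have htt : t * t = 1 := by rw [← sq, ← ht, pow_orderOf_eq_one]
  have ht1 : t ≠ 1 := fun e => by rw [e, orderOf_one] at ht; omega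
  have htP : t ∉ (P : Subgroup G) := fun h => by
    have h1 := Subgroup.orderOf_dvd_natCard _ h
    rw [card_sylow_prime_degree hX' P, ht] at h1
    exact hp2 ((Nat.prime_dvd_prime_iff_eq Nat.prime_two hp).1 h1).symm
  obtain ⟨g, -, hzp, hg, -⟩ := exists_zmod_coordinates hX' P
  -- `t` inverts `g`
  have hgP : g ∈ (P : Subgroup G) := hzp ▸ Subgroup.mem_zpowers g
  have hinv : t * g * t⁻¹ = g⁻¹ := by
    obtain ⟨k, hk⟩ : t * g * t⁻¹ ∈ Subgroup.zpowers g := by
      rw [hzp]; exact (Subgroup.mem_normalizer_iff.1 htN g).1 hgP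
    simp only at hk
    have h1 : g ^ (k * k - 1) = 1 := by
      rw [zpow_sub, zpow_mul, zpow_one, hk, conj_zpow, hk, show t⁻¹ = t from
        inv_eq_of_mul_eq_one_left htt, show t * (t * g * t) * t = (t * t) * g * (t * t) by group,
        htt, one_mul, mul_one, mul_inv_cancel]
    rw [← orderOf_dvd_iff_zpow_eq_one, hg, show k * k - 1 = (k - 1) * (k + 1) by ring] at h1
    rcases (Nat.prime_iff_prime_int.1 hp).dvd_or_dvd h1 with h | h
    · exfalso
      apply htP
      rw [← centralizer_sylow_prime_degree hX' P, Subgroup.mem_centralizer_iff]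
      have h2 : g ^ (k - 1) = 1 := by rw [← orderOf_dvd_iff_zpow_eq_one, hg]; exact h
      rw [zpow_sub_one, mul_inv_eq_one, hk] at h2
      intro n hn
      rw [← hzp] at hn
      obtain ⟨i, rfl⟩ := hn
      exact (Commute.zpow_left (show Commute g t from (mul_inv_eq_iff_eq_mul.1 h2).symm) i).eq
    · have h2 : g ^ (k + 1) = 1 := by rw [← orderOf_dvd_iff_zpow_eq_one, hg]; exact h
      rw [zpow_add_one, hk] at h2
      exact eq_inv_of_mul_eq_one_left h2
  by_cases hsol : Group.IsSolvable G
  · -- the solvable case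
    haveI hPn : (P : Subgroup G).Normal := sylow_normal_of_isSolvable hX' hsol P
    haveI : IsCyclic (P : Subgroup G) := isCyclic_of_prime_card (card_sylow_prime_degree hX' P)
    have hinjH : ∀ h ∈ H, h ∈ Subgroup.centralizer ((P : Subgroup G) : Set G) → h = 1 := by
      intro h hh hc
      rw [centralizer_sylow_prime_degree hX' P] at hc
      have h1 := Subgroup.orderOf_dvd_natCard _ hc
      rw [card_sylow_prime_degree hX' P] at h1
      rcases (Nat.dvd_prime hp).1 h1 with e | e
      · exact orderOf_eq_one_iff.1 e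
      · exact absurd (e ▸ Subgroup.orderOf_dvd_natCard _ hh) hpH
    have hcomm : ∀ a ∈ H, ∀ b ∈ H, a * b = b * a := by
      intro a ha b hb
      have h1 : MulAut.conjNormal (a * b) = (MulAut.conjNormal (b * a) : MulAut (P : Subgroup G)) := by
        rw [map_mul, map_mul]
        exact (IsCyclic.mulAutMulEquiv (P : Subgroup G)).injective
          (by rw [map_mul, map_mul, mul_comm])
      refine mul_inv_eq_one.1 (hinjH _ (H.mul_mem (H.mul_mem ha hb)
        (H.inv_mem (H.mul_mem hb ha))) ?_)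
      rw [Subgroup.mem_centralizer_iff]
      intro n hn
      have h2 : MulAut.conjNormal (a * b * (b * a)⁻¹) = (1 : MulAut (P : Subgroup G)) := by
        rw [map_mul, map_inv, h1, mul_inv_cancel]
      have h3 := congrArg Subtype.val (DFunLike.congr_fun h2 (⟨n, hn⟩ : (P : Subgroup G)))
      rw [MulAut.conjNormal_apply] at h3
      exact (mul_inv_eq_iff_eq_mul.1 h3).symm
    have h2H : 2 ∣ Nat.card H := by
      have h1 : 2 ∣ Nat.card G :=
        heven.two_dvd.trans (Subgroup.card_subgroup_dvd_card _)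
      rw [← H.card_mul_index, hH] at h1
      exact (Nat.prime_two.dvd_mul.1 h1).resolve_right fun h =>
        hp2 ((Nat.prime_dvd_prime_iff_eq Nat.prime_two hp).1 h).symm
    obtain ⟨⟨h, hh⟩, hho⟩ := exists_prime_orderOf_dvd_card' (G := H) 2 h2H
    rw [← Subgroup.orderOf_coe] at hho
    change orderOf h = 2 at hho
    obtain ⟨w, hw⟩ := exists_fixed_of_involution (X := X) (hX' ▸ hpodd)
      (show h * h = 1 by rw [← sq, ← hho, pow_orderOf_eq_one])
    refine ⟨w, fun x hx => ?_⟩
    by_contra hne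
    have hNtop : h ∈ Subgroup.normalizer ((P : Subgroup G) : Set G) := by
      rw [Subgroup.normalizer_eq_top]; exact Subgroup.mem_top _
    have h1 := eq_one_of_fix_two_of_normalizer hX' P hNtop (fun e => hne e.symm) hw
      (show h • x • w = x • w by rw [smul_smul, hcomm h hh x hx, mul_smul, hw])
    rw [h1, orderOf_one] at hho
    omega
  -- the non-solvable case
  have h2trans := burnside_two_transitive hX hsol
  haveI hβf : Finite (G ⧸ H) := inferInstance
  have hβ : Nat.card (G ⧸ H) = p := by rw [← Subgroup.index_eq_card, hH]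
  have hfree : ∀ (k : ℤ) (b : G ⧸ H), g ^ k • b = b → g ^ k = 1 := by
    intro k b hb
    obtain ⟨x, rfl⟩ := QuotientGroup.mk_surjective b
    have hm : x⁻¹ * g ^ k * x ∈ H := by
      rw [MulAction.Quotient.smul_mk, QuotientGroup.eq] at hb
      have := H.inv_mem hb
      simp only [smul_eq_mul, mul_inv_rev, inv_inv] at this
      rwa [mul_assoc]
    have ho : orderOf (x⁻¹ * g ^ k * x) = orderOf (g ^ k) := by
      have e := MulEquiv.orderOf_eq (MulAut.conj x⁻¹) (g ^ k)
      rwa [MulAut.conj_apply, inv_inv] at e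
    have h1 : orderOf (g ^ k) ∣ p := hg ▸ orderOf_dvd_of_mem_zpowers ⟨k, rfl⟩
    rcases (Nat.dvd_prime hp).1 h1 with e | e
    · exact orderOf_eq_one_iff.1 e
    · exact absurd (e ▸ ho ▸ Subgroup.orderOf_dvd_natCard _ hm) hpH
  have hfreeX : ∀ (k : ℤ) (a : X), g ^ k • a = a → g ^ k = 1 := by
    intro k a ha
    have hk : g ^ k ∈ (P : Subgroup G) := hzp ▸ Subgroup.zpow_mem_zpowers g k
    have : (⟨_, hk⟩ : (P : Subgroup G)) ∈ stabilizer (P : Subgroup G) a := ha
    rw [stabilizer_sylow_prime_degree hX' P a, Subgroup.mem_bot] at this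
    exact congrArg Subtype.val this
  obtain ⟨a0, ha0⟩ := exists_fixed_of_involution (X := X) (hX' ▸ hpodd) htt
  obtain ⟨b0, hb0⟩ := exists_fixed_of_involution (X := G ⧸ H) (hβ ▸ hpodd) htt
  haveI : NeZero p := ⟨hp.ne_zero⟩
  let f : ZMod p → G := fun i => g ^ (i.val : ℤ)
  have hf : ∀ i : ℤ, f (i : ZMod p) = g ^ i := fun i => by
    show g ^ (((i : ZMod p).val : ℕ) : ℤ) = g ^ i
    rw [← orderOf_dvd_sub_iff_zpow_eq_zpow, hg, ← ZMod.intCast_eq_intCast_iff_dvd_sub, Int.cast_natCast,
      ZMod.natCast_zmod_val]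
  have hfadd : ∀ i j, f (i + j) = f i * f j := fun i j => by
    obtain ⟨i, rfl⟩ := ZMod.intCast_surjective i
    obtain ⟨j, rfl⟩ := ZMod.intCast_surjective j
    rw [← Int.cast_add, hf, hf, hf, zpow_add]
  have hfneg : ∀ i, t * f i = f (-i) * t := fun i => by
    obtain ⟨i, rfl⟩ := ZMod.intCast_surjective i
    rw [← Int.cast_neg, hf, hf, zpow_neg, ← inv_zpow, ← hinv, conj_zpow]
    group
  have hf1 : ∀ i, f i = 1 → i = 0 := fun i hi => by
    obtain ⟨i, rfl⟩ := ZMod.intCast_surjective i
    rw [hf, ← orderOf_dvd_iff_zpow_eq_one, hg] at hi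
    exact (ZMod.intCast_zmod_eq_zero_iff_dvd i p).2 hi
  have hαb : Function.Bijective (fun i => f i • a0) := by
    refine (Nat.bijective_iff_injective_and_card _).2 ⟨fun i j e => ?_, ?_⟩
    · have e' : f i • a0 = f j • a0 := e
      have h1 : f (-j + i) • a0 = a0 := by
        rw [hfadd, mul_smul, e', ← mul_smul, ← hfadd, neg_add_cancel]
        simp [f]
      have h2 := hf1 _ (hfreeX _ _ h1)
      rwa [neg_add_eq_zero, eq_comm] at h2
    · rw [hX', Nat.card_eq_fintype_card, ZMod.card]
  have hβb : Function.Bijective (fun i => f i • b0) := by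
    refine (Nat.bijective_iff_injective_and_card _).2 ⟨fun i j e => ?_, ?_⟩
    · have e' : f i • b0 = f j • b0 := e
      have h1 : f (-j + i) • b0 = b0 := by
        rw [hfadd, mul_smul, e', ← mul_smul, ← hfadd, neg_add_cancel]
        simp [f]
      have h2 := hf1 _ (hfree _ _ h1)
      rwa [neg_add_eq_zero, eq_comm] at h2
    · rw [hβ, Nat.card_eq_fintype_card, ZMod.card]
  -- the relation
  obtain ⟨a1⟩ : Nonempty X := ⟨a0⟩
  let Rel : X → G ⧸ H → Prop := fun a b => ∃ x : G, x • a1 = a ∧ x • (QuotientGroup.mk (1 : G) : G ⧸ H) = b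
  have hrel : ∀ (x : G) a b, Rel (x • a) (x • b) ↔ Rel a b := by
    intro x a b
    constructor
    · rintro ⟨y, h1, h2⟩
      exact ⟨x⁻¹ * y, by rw [mul_smul, h1, inv_smul_smul], by rw [mul_smul, h2, inv_smul_smul]⟩
    · rintro ⟨y, h1, h2⟩
      exact ⟨x * y, by rw [mul_smul, h1], by rw [mul_smul, h2]⟩
  let D : Finset (ZMod p) := Finset.univ.filter fun i => Rel (f i • a0) b0
  have hD : ∀ i, i ∈ D ↔ Rel (f i • a0) b0 := fun i => by simp [D]
  have hDneg : ∀ i, -i ∈ D ↔ i ∈ D := fun i => by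
    rw [hD, hD, ← hrel t (f i • a0) b0, smul_smul, hfneg, mul_smul, ha0, hb0]
  have hDshift : ∀ i j, Rel (f i • a0) (f j • b0) ↔ i - j ∈ D := fun i j => by
    rw [hD, ← hrel (f j) (f (i - j) • a0) b0, smul_smul, ← hfadd, add_sub_cancel]
  -- constant intersections
  obtain ⟨u, v, huv⟩ : ∃ u v : X, u ≠ v := Fintype.exists_pair_of_one_lt_card (by rw [hX]; exact hp.one_lt)
  let M : X → X → ℕ := fun a a' => Nat.card {b : G ⧸ H // Rel a b ∧ Rel a' b}
  have hM : ∀ a a', a ≠ a' → M a a' = M u v := by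
    intro a a' hne
    obtain ⟨x, rfl, rfl⟩ := is_two_pretransitive_iff.1 h2trans huv hne
    refine Nat.card_congr ⟨fun b => ⟨x⁻¹ • b.1, ?_⟩, fun b => ⟨x • b.1, ?_⟩,
      fun b => Subtype.ext (smul_inv_smul _ _), fun b => Subtype.ext (inv_smul_smul _ _)⟩
    · rw [← hrel x u, ← hrel x v, smul_inv_smul]; exact b.2
    · rw [hrel, hrel]; exact b.2
  have hm : ∀ i : ZMod p, i ≠ 0 →
      (Finset.univ.filter fun j => i - j ∈ D ∧ j ∈ D).card = M u v := by
    intro i hi
    have hne : f i • a0 ≠ f 0 • a0 := fun e => hi (hαb.1 e)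
    rw [← hM _ _ hne, ← Fintype.card_subtype, ← Nat.card_eq_fintype_card]
    refine Nat.card_congr ((Equiv.ofBijective _ hβb).subtypeEquiv fun j => ?_)
    show _ ↔ Rel (f i • a0) (f j • b0) ∧ Rel (f 0 • a0) (f j • b0)
    rw [hDshift, hDshift, zero_sub, hDneg]
  obtain ⟨x0, hx0⟩ := QuotientGroup.mk_surjective b0
  have hone : ∀ h ∈ H, h • (QuotientGroup.mk (1 : G) : G ⧸ H) = QuotientGroup.mk (1 : G) := by
    intro h hh
    rw [MulAction.Quotient.smul_mk, QuotientGroup.eq]
    simpa using H.inv_mem hh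
  have hx0' : x0 • (QuotientGroup.mk (1 : G) : G ⧸ H) = b0 := by
    rw [MulAction.Quotient.smul_mk, smul_eq_mul, mul_one, hx0]
  refine ⟨x0⁻¹ • a0, fun h hh => ?_⟩
  set s := x0 * h * x0⁻¹ with hs
  have hsb : s • b0 = b0 := by rw [hs, ← hx0', mul_smul, mul_smul, inv_smul_smul, hone h hh]
  suffices hsa : s • a0 = a0 by
    show h • x0⁻¹ • a0 = x0⁻¹ • a0
    rw [eq_inv_smul_iff, smul_smul, smul_smul]
    exact hsa
  obtain ⟨i, hi⟩ := hαb.2 (s • a0)
  have hfi : Rel (f i • a0) b0 ↔ Rel a0 b0 := by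
    have e := hrel s a0 b0
    rw [hsb] at e
    show Rel (f i • a0) b0 ↔ _
    rw [show f i • a0 = s • a0 from hi]
    exact e
  have h00 : f 0 • a0 = a0 := by simp [f]
  rw [← hD i, ← h00, ← hD 0] at hfi
  rcases symmetric_difference_set_trivial hp2 D hm with hall | hnone
  · by_cases h0 : (0 : ZMod p) ∈ D
    · exfalso
      apply hpH
      have hfull : ∀ a : X, ∃ h ∈ H, h • a1 = a := fun a => by
        obtain ⟨i, hi⟩ := hαb.2 (x0 • a)
        have hiD : i ∈ D := if e : i = 0 then e ▸ h0 else hall i e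
        have : Rel (x0 • a) b0 := by rw [← show f i • a0 = x0 • a from hi]; exact (hD i).1 hiD
        rw [← hx0', hrel] at this
        obtain ⟨y, hy1, hy2⟩ := this
        refine ⟨y, ?_, hy1⟩
        rw [MulAction.Quotient.smul_mk, QuotientGroup.eq] at hy2
        simpa using H.inv_mem hy2
      haveI : IsPretransitive H X := ⟨fun a b => by
        obtain ⟨h1, hh1, rfl⟩ := hfull a
        obtain ⟨h2, hh2, rfl⟩ := hfull b
        exact ⟨⟨h2 * h1⁻¹, H.mul_mem hh2 (H.inv_mem hh1)⟩, by
          show (h2 * h1⁻¹) • h1 • a1 = h2 • a1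
          rw [smul_smul, inv_mul_cancel_right]⟩⟩
      exact prime_dvd_card (G := H) hX'
    · by_cases hi0 : i = 0
      · rw [← hi, hi0]; exact h00
      · exact absurd (hfi.1 (hall i hi0)) h0
  · by_cases h0 : (0 : ZMod p) ∈ D
    · by_cases hi0 : i = 0
      · rw [← hi, hi0]; exact h00
      · exact absurd (hfi.2 h0) (hnone i hi0)
    · exfalso
      obtain ⟨x, hx⟩ := MulAction.exists_smul_eq G (QuotientGroup.mk (1 : G) : G ⧸ H) b0
      obtain ⟨j, hj⟩ := hαb.2 (x • a1)
      have : j ∈ D := (hD j).2 ⟨x, hj.symm, hx⟩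
      by_cases hj0 : j = 0
      · exact h0 (hj0 ▸ this)
      · exact hnone j hj0 this

end CfsgLib.PermGroups
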